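import Cfsg.Agent.H5.HT.Big
import Cfsg.Agent.H583.HT.Rho

/-!
# S3577, `e_two_seven` and `e_two_eleven` (helper5)
-/

set_option autoImplicit false
set_option linter.unusedSectionVars false

open scoped commutatorElement

namespace Cfsg.Agent.H5.HT

open Cfsg.Agent.H828.HT Cfsg.Agent.H662.HT Module

universe u

variable {p : ℕ} [Fact p.Prime] {V : Type u} [AddCommGroup V] [Module (ZMod p) V] [Finite V]
  {K : Type u} [Field K] [Module K V] {G A F : Subgroup (V ≃ₗ[ZMod p] V)} {χ : A →* Kˣ} {σ : G →* (K ≃+* K)}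

/-- the frame of helper583 -/
theorem rf_of_rho (E : ETwo G A F) (hK : KS G A K χ σ) {ρ : G →* Equiv.Perm (Fin 3)}
    {n : Fin 3 → (V ≃ₗ[ZMod p] V)} (R : Cfsg.Agent.H583.HT.Rho G A F ρ n) : RF A F σ ρ where
  ker := fun g => ⟨fun h => R.mem_of_eq E hK h.1 h.2, fun h => ⟨R.rho_of_mem E h,
    Cfsg.Agent.H583.HT.sigma_of_mem E hK h⟩⟩
  fpf := R.fpf
  cen := fun g hg f hf hc => by
    rcases R.cov f hf with h | ⟨i, h⟩
    · exact h
    exfalso
    apply hg i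
    rw [R.act]
    obtain ⟨a, ha⟩ : ∃ a, a = (n i)⁻¹ * f := ⟨_, rfl⟩
    rw [← ha] at h
    have h1 : n i = f * a⁻¹ := by rw [ha]; group
    have h2 : (n i)⁻¹ * ((g : V ≃ₗ[ZMod p] V) * n i * (g : V ≃ₗ[ZMod p] V)⁻¹) =
        a * ((g : V ≃ₗ[ZMod p] V) * a⁻¹ * (g : V ≃ₗ[ZMod p] V)⁻¹) := by
      calc (n i)⁻¹ * ((g : V ≃ₗ[ZMod p] V) * n i * (g : V ≃ₗ[ZMod p] V)⁻¹)
          = (n i)⁻¹ * (((g : V ≃ₗ[ZMod p] V) * f) * a⁻¹ * (g : V ≃ₗ[ZMod p] V)⁻¹) := by rw [h1]; group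
        _ = (n i)⁻¹ * ((f * (g : V ≃ₗ[ZMod p] V)) * a⁻¹ * (g : V ≃ₗ[ZMod p] V)⁻¹) := by rw [hc]
        _ = ((n i)⁻¹ * f) * ((g : V ≃ₗ[ZMod p] V) * a⁻¹ * (g : V ≃ₗ[ZMod p] V)⁻¹) := by group
        _ = a * ((g : V ≃ₗ[ZMod p] V) * a⁻¹ * (g : V ≃ₗ[ZMod p] V)⁻¹) := by rw [← ha]
    rw [h2]
    exact mul_mem h (E.nA g g.2 _ (inv_mem h))

/-- the number of solutions of `a ^ (p + 1) = 1` in `A` -/
theorem card_pow (E : ETwo G A F) (d : ℕ) : Nat.card {a : A // a ^ d = 1} = (Nat.card A).gcd d := by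
  have := Cfsg.Agent.H583.HT.finite_gl (p := p) (V := V)
  have := E.cyc
  let _ := IsCyclic.commGroup (α := A)
  have h1 := IsCyclic.card_powMonoidHom_ker (G := A) d
  rw [← h1]
  exact Nat.card_congr (Equiv.subtypeEquivRight fun a => by rw [MonoidHom.mem_ker]; rfl)

/-- the data of the proof -/
structure Data (E : ETwo G A F) (hK : KS G A K χ σ) (ρ : G →* Equiv.Perm (Fin 3)) (x : G) (j n : ℕ) : Prop where
  rf : RF A F σ ρ
  der : ∀ i, ρ x i ≠ i
  sx : σ x = 1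
  xn : x ^ 3 ^ n = 1
  hj : j = 3 ∨ j = 6
  ck : Nat.card σ.ker = 4 * Nat.card A * j
  j3 : j = 3 → ∀ y : G, σ y = 1 → ρ y ^ 3 = 1
  half : Half G 2
  cG : Nat.card G = 2 * Nat.card σ.ker
  dvd : 4 * Nat.card A * j ∣ p ^ 4 - 1
  dvdK : Nat.card A ∣ p ^ 2 - 1
  ndvd : ¬ Nat.card A ∣ p - 1

theorem exists_data [Nontrivial V] (E : ETwo G A F) (hK : KS G A K χ σ) (hp7 : 7 ≤ p) (hV : Nat.card V = p ^ 4)
    (hKc : Nat.card K = p ^ 2) {h : ℕ} (hh : Half G h) (h2 : 2 ≤ h) :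
    ∃ (ρ : G →* Equiv.Perm (Fin 3)) (x : G) (j n : ℕ), Data E hK ρ x j n := by
  have hfin := hK.fin
  have hfg := Cfsg.Agent.H583.HT.finite_gl (p := p) (V := V)
  have hC : CharP K p := charK p V K
  have hV' : Nat.card V = (p ^ 2) ^ 2 := by rw [hV, ← pow_mul]
  have h2f : finrank K V = 2 := finrank_two hKc hV'
  obtain ⟨ρ, r, R₀⟩ := Cfsg.Agent.H583.HT.exists_rho E
  have R := rf_of_rho E hK R₀
  obtain ⟨x, n, hx, hs, hxn⟩ := exists_x hK hKc R.fpf
  obtain ⟨j, hj, hker, hj3⟩ := card_C E R hx hs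
  have hYc := card_HF_le E hK h2f (D := σ.ker) (fun y hy => sigma_A E hK hy) le_rfl (k := 4 * j)
    (by rw [hker]; ring)
  have hYc' : Nat.card {y : G // y ∈ σ.ker ∧ y ≠ 1 ∧ HF (y : V ≃ₗ[ZMod p] V)} ≤ 46 := by
    refine hYc.trans ?_
    rcases hj with h | h <;> rw [h] <;> norm_num
  obtain ⟨v, hv, hfree⟩ := exists_free hK hKc hV' (by nlinarith) hYc'
  obtain ⟨rfl, hG⟩ := h_two hK hKc hh h2 hv hfree
  refine ⟨ρ, x, j, n, R, hx, hs, hxn, hj, hker, hj3, hh, hG, ?_, ?_, ?_⟩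
  · have h1 := dvd_card_sub_one hh (by norm_num) (m := Nat.card σ.ker) (by rw [hG]; ring)
    rwa [hV, hker] at h1
  · have h1 := Subgroup.card_dvd_of_injective χ hK.inj
    rwa [Nat.card_units, hKc] at h1
  · intro hd
    obtain ⟨y, hy⟩ : ∃ y : G, σ y ≠ 1 := by
      by_contra hcon
      push Not at hcon
      have h1 : σ.ker = ⊤ := eq_top_iff.2 fun y _ => hcon y
      rw [h1, Subgroup.card_top] at hG
      have h3 : 0 < Nat.card G := Nat.card_pos
      omega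
    apply hy
    rw [hK.cen]
    intro a ha
    rw [conj_A hK hKc hy ha]
    have h1 : a ^ (p - 1) = 1 := by
      obtain ⟨c, hc⟩ := hd
      have h4 : (⟨a, ha⟩ : A) ^ Nat.card A = 1 := pow_card_eq_one'
      have h5 : a ^ Nat.card A = 1 := congrArg Subtype.val h4
      rw [hc, pow_mul, h5, one_pow]
    have h3 : a ^ p = a := by
      obtain ⟨c, rfl⟩ : ∃ c, p = c + 1 := ⟨p - 1, by omega⟩
      rw [Nat.add_sub_cancel] at h1
      rw [pow_succ, h1, one_mul]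
    rw [h3]

section final

variable {ρ : G →* Equiv.Perm (Fin 3)} {x : G} {j n : ℕ}

/-- the counting mod 3 -/
theorem Data.mod_three [Nontrivial V] {E : ETwo G A F} {hK : KS G A K χ σ} (D : Data E hK ρ x j n) (hp2 : p ≠ 2)
    (hV : Nat.card V = p ^ 4) (hKc : Nat.card K = p ^ 2) :
    p ^ 2 + 1 ≡ 0 [MOD 3] ∨ p ^ 2 + 1 ≡ (Nat.card A).gcd (p + 1) [MOD 3] := by
  have hfin := hK.fin
  have hC : CharP K p := charK p V K
  have h1 := card_II hp2 hK hKc hV D.half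
  have h3 := modEq_fixed D.xn (II G) fun y hy => conj_II hy x
  rw [h1] at h3
  rcases card_fixed hp2 E hK hKc hV D.rf D.der D.sx with h4 | h4
  · rw [h4] at h3
    exact Or.inl h3
  · rw [h4, card_pow E] at h3
    exact Or.inr h3

/-- the counting when `j = 3` and `a ^ (p + 1) = 1` on `A` -/
theorem Data.count [Nontrivial V] {E : ETwo G A F} {hK : KS G A K χ σ} (D : Data E hK ρ x j n) (hp2 : p ≠ 2)
    (hV : Nat.card V = p ^ 4) (hKc : Nat.card K = p ^ 2) (hj : j = 3) (hA : Nat.card A ∣ p + 1) :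
    ∃ n1 n2 : ℕ, n1 ≤ 6 ∧ n1 % 3 = 0 ∧ Nat.card A ∣ n2 ∧ n1 + n2 = p ^ 2 + 1 := by
  have hfin := hK.fin
  have hfg := Cfsg.Agent.H583.HT.finite_gl (p := p) (V := V)
  have hC : CharP K p := charK p V K
  have hV' : Nat.card V = (p ^ 2) ^ 2 := by rw [hV, ← pow_mul]
  have h2f : finrank K V = 2 := finrank_two hKc hV'
  have h1 := card_II hp2 hK hKc hV D.half
  refine ⟨Nat.card {y : G // y ∈ II G ∧ σ y = 1}, Nat.card {y : G // y ∈ II G ∧ σ y ≠ 1}, ?_, ?_, ?_, ?_⟩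
  · have h3 := card_HF_le E hK h2f (D := F.subgroupOf G)
      (fun y hy => Subgroup.mem_subgroupOf.2 (E.AF (Subgroup.mem_subgroupOf.1 hy)))
      (fun y hy => ((D.rf.ker y).2 (Subgroup.mem_subgroupOf.1 hy)).2) (k := 4)
      (by rw [← E.card]; exact Nat.card_congr (Subgroup.subgroupOfEquivOfLe E.FG).toEquiv)
    refine le_trans ?_ (h3.trans (by norm_num))
    refine Nat.card_le_card_of_injective (fun y => ⟨y.1, ?_, y.2.1.2.1, y.2.1.2.2⟩) fun y z hyz => ?_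
    · rw [Subgroup.mem_subgroupOf, ← D.rf.ker]
      refine ⟨?_, y.2.2⟩
      have h4 := D.j3 hj y.1 y.2.2
      have h5 : ρ y.1 * ρ y.1 = 1 := by rw [← map_mul, y.2.1.1, map_one]
      calc ρ y.1 = ρ y.1 ^ 3 * (ρ y.1 * ρ y.1)⁻¹ := by group
        _ = 1 := by rw [h4, h5, inv_one, mul_one]
    · have := congrArg Subtype.val hyz
      exact Subtype.ext this
  · have h3 := modEq_fixed D.xn {y : G | y ∈ II G ∧ σ y = 1} (fun y hy => ⟨conj_II hy.1 x, by
      rw [map_mul, map_mul, hy.2, D.sx, map_inv, D.sx, mul_one, mul_inv_cancel]⟩)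
    have h4 : IsEmpty {y : G // y ∈ {y : G | y ∈ II G ∧ σ y = 1} ∧ x * y = y * x} :=
      ⟨fun y => not_comm E D.rf D.der y.2.1.1 y.2.1.2 y.2.2⟩
    rw [Nat.card_of_isEmpty (α := {y : G // y ∈ {y : G | y ∈ II G ∧ σ y = 1} ∧ x * y = y * x})] at h3
    exact h3
  · refine dvd_out hp2 E hK hKc hV fun a ha => ?_
    obtain ⟨c, hc⟩ := hA
    have h4 : (⟨a, ha⟩ : A) ^ Nat.card A = 1 := pow_card_eq_one'
    have h5 : a ^ Nat.card A = 1 := congrArg Subtype.val h4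
    rw [hc, pow_mul, h5, one_pow]
  · rw [← h1]
    classical
    have := Fintype.ofFinite G
    rw [Nat.card_eq_fintype_card, Nat.card_eq_fintype_card, Fintype.card_subtype, Fintype.card_subtype,
      show Nat.card (II G) = Nat.card {y : G // y ∈ II G} from rfl, Nat.card_eq_fintype_card, Fintype.card_subtype,
      ← Finset.filter_filter, ← Finset.filter_filter]
    exact Finset.card_filter_add_card_filter_not _

end final

/-- **P4e** -/
theorem e_two_seven [Nontrivial V] (E : ETwo G A F) (hK : KS G A K χ σ) (hp : p = 7) (hV : Nat.card V = 7 ^ 4)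
    (hKc : Nat.card K = 7 ^ 2) (_hcop : ¬ p ∣ Nat.card G) {h : ℕ} (hh : Half G h) (h2 : 2 ≤ h) : False := by
  subst hp
  obtain ⟨ρ, x, j, n, D⟩ := exists_data E hK le_rfl hV hKc hh h2
  have h3 := D.mod_three (by norm_num) hV hKc
  have h4 := D.count (by norm_num) hV hKc
  have h5 := D.dvd
  have h6 := D.dvdK
  have h7 := D.ndvd
  have h8 := D.hj
  have h0 : Nat.card A ≤ 48 := Nat.le_of_dvd (by norm_num) h6
  generalize Nat.card A = z at h3 h4 h5 h6 h7 h0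
  have hz : z = 4 ∨ (z = 8 ∧ j = 3) := by
    rcases h8 with rfl | rfl
    · revert h5 h6 h7
      clear h3 h4
      interval_cases z <;> decide
    · revert h5 h6 h7
      clear h3 h4
      interval_cases z <;> decide
  rcases hz with rfl | ⟨rfl, rfl⟩
  · revert h3
    decide
  · obtain ⟨n1, n2, a1, a2, a3, a4⟩ := h4 rfl (by norm_num)
    omega

/-- **P4f** -/
theorem e_two_eleven [Nontrivial V] (E : ETwo G A F) (hK : KS G A K χ σ) (hp : p = 11) (hV : Nat.card V = 11 ^ 4)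
    (hKc : Nat.card K = 11 ^ 2) (_hcop : ¬ p ∣ Nat.card G) {h : ℕ} (hh : Half G h) (h2 : 2 ≤ h) : False := by
  subst hp
  obtain ⟨ρ, x, j, n, D⟩ := exists_data E hK (by norm_num) hV hKc hh h2
  have h3 := D.mod_three (by norm_num) hV hKc
  have h5 := D.dvd
  have h6 := D.dvdK
  have h7 := D.ndvd
  have h8 := D.hj
  have h0 : Nat.card A ≤ 120 := Nat.le_of_dvd (by norm_num) h6
  generalize Nat.card A = z at h3 h5 h6 h7 h0
  have hz : z = 4 ∨ z = 20 := by
    rcases h8 with rfl | rfl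
    · revert h5 h6 h7
      clear h3
      interval_cases z <;> decide
    · revert h5 h6 h7
      clear h3
      interval_cases z <;> decide
  rcases hz with rfl | rfl
  · revert h3
    decide
  · revert h3
    decide

end Cfsg.Agent.H5.HT
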