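import Cfsg.Agent.H662.HT.Two

/-!
# S3577, the case `e = 2`, `|K| = p²`, `|V| = p⁴`, `p = 7` or `11` (helper5)
-/

set_option autoImplicit false
set_option linter.unusedSectionVars false

open scoped commutatorElement

namespace Cfsg.Agent.H5.HT

open Cfsg.Agent.H828.HT Cfsg.Agent.H662.HT Module

universe u

/-! ### permutations of three points -/

theorem s3_der (a b c : Equiv.Perm (Fin 3)) (ha : a 0 ≠ 0) (hb : b 1 ≠ 1) (hc : c 2 ≠ 2) :
    (∀ i, a i ≠ i) ∨ (∀ i, b i ≠ i) ∨ (∀ i, c i ≠ i) ∨ (∀ i, (a * b) i ≠ i) ∨ (∀ i, (a * c) i ≠ i) := by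
  let dr : Equiv.Perm (Fin 3) → Bool := fun a => decide (a 0 ≠ 0) && decide (a 1 ≠ 1) && decide (a 2 ≠ 2)
  have hd : ∀ a, dr a = true → ∀ i, a i ≠ i := by
    intro a h
    simp only [dr, Bool.and_eq_true, decide_eq_true_eq] at h
    intro i
    fin_cases i
    · exact h.1.1
    · exact h.1.2
    · exact h.2
  have key : ∀ a b c : Equiv.Perm (Fin 3), (decide (a 0 = 0) || decide (b 1 = 1) || decide (c 2 = 2) ||
      dr a || dr b || dr c || dr (a * b) || dr (a * c)) = true := by decide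
  have h := key a b c
  simp only [Bool.or_eq_true, decide_eq_true_eq] at h
  rcases h with ((((((h | h) | h) | h) | h) | h) | h) | h
  · exact absurd h ha
  · exact absurd h hb
  · exact absurd h hc
  · exact Or.inl (hd _ h)
  · exact Or.inr (Or.inl (hd _ h))
  · exact Or.inr (Or.inr (Or.inl (hd _ h)))
  · exact Or.inr (Or.inr (Or.inr (Or.inl (hd _ h))))
  · exact Or.inr (Or.inr (Or.inr (Or.inr (hd _ h))))

theorem s3_cube (a : Equiv.Perm (Fin 3)) (ha : ∀ i, a i ≠ i) : a ^ 3 = 1 := by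
  revert a
  decide

theorem s3_cent (a b : Equiv.Perm (Fin 3)) (ha : ∀ i, a i ≠ i) (h : a * b = b * a) : b = 1 ∨ b = a ∨ b = a * a := by
  revert a b
  decide

theorem s3_sq (a b : Equiv.Perm (Fin 3)) (ha : ∀ i, a i ≠ i) (h : a * b = b * a) (hb : b * b = 1) : b = 1 := by
  revert a b
  decide

/-! ### fields of order `p²` -/

section field

variable {p : ℕ} [Fact p.Prime] {K : Type u} [Field K] [Finite K]

theorem aut_pow [CharP K p] (τ : K ≃+* K) : ∃ n : ℕ, ∀ x : K, τ x = x ^ p ^ n := by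
  classical
  have := Fintype.ofFinite K
  let _ : Algebra (ZMod p) K := ZMod.algebra K p
  let σ : K ≃ₐ[ZMod p] K := AlgEquiv.ofRingEquiv (f := τ) (fun x => by
    have : (τ : K →+* K).comp (algebraMap (ZMod p) K) = algebraMap (ZMod p) K := Subsingleton.elim _ _
    exact RingHom.congr_fun this x)
  obtain ⟨n, hn⟩ := (FiniteField.bijective_frobeniusAlgEquivOfAlgebraic_pow (ZMod p) K).2 σ
  refine ⟨n, fun x => ?_⟩
  have h1 : τ x = σ x := rfl
  rw [h1, ← hn]
  show (FiniteField.frobeniusAlgEquivOfAlgebraic (ZMod p) K ^ (n : ℕ)) x = _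
  rw [AlgEquiv.coe_pow, FiniteField.coe_frobeniusAlgEquivOfAlgebraic_iterate, ZMod.card]

theorem pow_card_K (hK : Nat.card K = p ^ 2) (x : K) : x ^ p ^ 2 = x := by
  have := Fintype.ofFinite K
  rw [← hK, Nat.card_eq_fintype_card]
  exact FiniteField.pow_card x

theorem aut_cases [CharP K p] (hK : Nat.card K = p ^ 2) (τ : K ≃+* K) : τ = 1 ∨ ∀ x : K, τ x = x ^ p := by
  obtain ⟨n, hn⟩ := aut_pow (p := p) τ
  have h1 : ∀ m : ℕ, ∀ x : K, x ^ p ^ (2 * m) = x := by
    intro m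
    induction m with
    | zero => intro x; simp
    | succ m ih =>
      intro x
      rw [show 2 * (m + 1) = 2 * m + 2 by ring, pow_add, pow_mul, ih, pow_card_K hK]
  rcases Nat.even_or_odd' n with ⟨m, hm | hm⟩
  · left
    ext x
    rw [hn, hm, h1]
    rfl
  · right
    intro x
    rw [hn, hm, pow_add, pow_mul, h1, pow_one]

theorem aut_sq [CharP K p] (hK : Nat.card K = p ^ 2) (τ : K ≃+* K) : τ * τ = 1 := by
  rcases aut_cases (p := p) hK τ with h | h
  · rw [h, mul_one]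
  · ext x
    show τ (τ x) = x
    rw [h, h, ← pow_mul, ← sq, pow_card_K hK]

theorem aut_unique [CharP K p] (hK : Nat.card K = p ^ 2) (τ τ' : K ≃+* K) (h : τ ≠ 1) (h' : τ' ≠ 1) : τ = τ' := by
  ext x
  rw [((aut_cases (p := p) hK τ).resolve_left h) x, ((aut_cases (p := p) hK τ').resolve_left h') x]

end field

/-! ### fixed points -/

section fixed

variable {p : ℕ} [Fact p.Prime] {V : Type u} [AddCommGroup V] [Module (ZMod p) V] [Finite V]
  {K : Type u} [Field K] [Finite K] [Module K V]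

variable (p V K) in
theorem charK [Nontrivial V] : CharP K p := by
  obtain ⟨v, hv⟩ := exists_ne (0 : V)
  refine ringChar.of_eq (CharP.ringChar_of_prime_eq_zero (Fact.out : p.Prime) ?_)
  have h1 : ((p : ℕ) : K) • v = 0 := by
    rw [Nat.cast_smul_eq_nsmul, ← Nat.cast_smul_eq_nsmul (ZMod p), CharP.cast_eq_zero, zero_smul]
  exact (smul_eq_zero.1 h1).resolve_right hv

theorem finrank_two {q : ℕ} (hq : Nat.card K = q) (hV : Nat.card V = q ^ 2) : finrank K V = 2 := by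
  have h1 := Module.natCard_eq_pow_finrank (K := K) (V := V)
  have h2 : 2 ≤ Nat.card K := Finite.one_lt_card
  rw [hV, hq] at h1
  rw [hq] at h2
  exact (Nat.pow_right_injective h2 h1).symm

/-- a linear map with a fixed vector -/
theorem card_fx_lin {q : ℕ} (hq : Nat.card K = q) (hV : Nat.card V = q ^ 2) {y : V ≃ₗ[ZMod p] V}
    (hy : ∀ (k : K) (v : V), y (k • v) = k • y v) (h1 : y ≠ 1) (hf : ∃ v : V, v ≠ 0 ∧ y v = v) :
    Nat.card (fx y) = q := by
  let W : Submodule K V :=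
    { carrier := {v | y v = v}
      add_mem' := fun {a b} ha hb => by
        show y (a + b) = a + b
        rw [map_add, ha, hb]
      zero_mem' := map_zero y
      smul_mem' := fun k v hv => by
        show y (k • v) = k • v
        rw [hy, hv] }
  have hW : Nat.card (fx y) = Nat.card W := Nat.card_congr (Equiv.subtypeEquivRight fun v => mem_fx)
  have h2 := finrank_two hq hV
  have h3 : finrank K W = 1 := by
    have h4 : W ≠ ⊥ := by
      obtain ⟨v, hv, hv'⟩ := hf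
      intro h
      have : v ∈ W := hv'
      rw [h, Submodule.mem_bot] at this
      exact hv this
    have h5 : W ≠ ⊤ := by
      intro h
      apply h1
      ext v
      have : v ∈ W := by rw [h]; trivial
      exact this
    have h6 : finrank K W < 2 := by
      rw [← h2]
      exact Submodule.finrank_lt h5
    have h7 : 0 < finrank K W := by
      rw [Module.finrank_pos_iff]
      exact Submodule.nontrivial_iff_ne_bot.2 h4
    omega
  rw [hW, Module.natCard_eq_pow_finrank (K := K), h3, hq, pow_one]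

/-- a semilinear involution -/
theorem card_fx_semi (hp : p ≠ 2) {y : V ≃ₗ[ZMod p] V} {τ : K ≃+* K} (hy : ∀ (k : K) (v : V), y (k • v) = τ k • y v)
    (hτ : τ ≠ 1) (hτ2 : τ * τ = 1) (hyy : y * y = 1) : Nat.card (fx y) ^ 2 = Nat.card V := by
  have hyy' : ∀ v, y (y v) = v := fun v => congrArg (fun g : V ≃ₗ[ZMod p] V => g v) hyy
  -- the scalar
  obtain ⟨k, hk⟩ : ∃ k, τ k ≠ k := by
    by_contra h
    push Not at h
    exact hτ (RingEquiv.ext h)
  have hl0 : k - τ k ≠ 0 := fun h => hk (sub_eq_zero.1 h).symm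
  have hl : τ (k - τ k) = -(k - τ k) := by
    have h1 : τ (τ k) = k := congrArg (fun g : K ≃+* K => g k) hτ2
    rw [map_sub, h1]; ring
  set l := k - τ k with hldef
  -- the map `v + y v`
  let f : V →ₗ[ZMod p] V := LinearMap.id + (y : V →ₗ[ZMod p] V)
  have hfa : ∀ v, f v = v + y v := fun v => rfl
  have hr : LinearMap.range f = fx y := by
    ext w
    rw [LinearMap.mem_range, mem_fx]
    constructor
    · rintro ⟨v, rfl⟩
      rw [hfa, map_add, hyy', add_comm]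
    · intro hw
      have h2 : ((2 : ZMod p)) ≠ 0 := by
        intro h
        have h3 : ((2 : ℕ) : ZMod p) = 0 := by exact_mod_cast h
        rw [ZMod.natCast_eq_zero_iff] at h3
        exact hp ((Nat.prime_dvd_prime_iff_eq (Fact.out : p.Prime) Nat.prime_two).1 h3)
      refine ⟨(2 : ZMod p)⁻¹ • w, ?_⟩
      rw [hfa, map_smul, hw, ← add_smul]
      have : (2 : ZMod p)⁻¹ + 2⁻¹ = 1 := by
        rw [← two_mul, mul_inv_cancel₀ h2]
      rw [this, one_smul]
  have hker : ∀ v, v ∈ LinearMap.ker f ↔ y v = -v := by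
    intro v
    rw [LinearMap.mem_ker, hfa, add_eq_zero_iff_eq_neg']
  have hc : Nat.card (LinearMap.ker f) = Nat.card (fx y) := by
    apply le_antisymm
    · refine Nat.card_le_card_of_injective (fun v : LinearMap.ker f => (⟨l • (v : V), ?_⟩ : fx y)) ?_
      · rw [mem_fx, hy, hl, (hker _).1 v.2, neg_smul, smul_neg, neg_neg]
      · intro a b hab
        have := congrArg Subtype.val hab
        exact Subtype.ext (smul_right_injective V hl0 this)
    · refine Nat.card_le_card_of_injective (fun v : fx y => (⟨l • (v : V), ?_⟩ : LinearMap.ker f)) ?_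
      · rw [hker, hy, hl, mem_fx.1 v.2, neg_smul]
      · intro a b hab
        have := congrArg Subtype.val hab
        exact Subtype.ext (smul_right_injective V hl0 this)
  have h5 := Submodule.card_eq_card_quotient_mul_card (LinearMap.ker f)
  rw [Nat.card_congr f.quotKerEquivRange.toEquiv, hr, hc] at h5
  rw [h5, sq]

end fixed

section main

variable {p : ℕ} [Fact p.Prime] {V : Type u} [AddCommGroup V] [Module (ZMod p) V] [Finite V]
  {K : Type u} [Field K] [Module K V] {G A F : Subgroup (V ≃ₗ[ZMod p] V)} {χ : A →* Kˣ} {σ : G →* (K ≃+* K)}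

/-- the action on the three non-trivial cosets of `A` in `F` -/
structure RF (A F : Subgroup (V ≃ₗ[ZMod p] V)) (σ : G →* (K ≃+* K)) (ρ : G →* Equiv.Perm (Fin 3)) : Prop where
  ker : ∀ g : G, (ρ g = 1 ∧ σ g = 1) ↔ (g : V ≃ₗ[ZMod p] V) ∈ F
  fpf : ∀ i, ∃ g : G, ρ g i ≠ i
  cen : ∀ g : G, (∀ i, ρ g i ≠ i) → ∀ f ∈ F, (g : V ≃ₗ[ZMod p] V) * f = f * g → f ∈ A

/-- elements with a non-zero fixed vector -/
def HF (y : V ≃ₗ[ZMod p] V) : Prop := ∃ v : V, v ≠ 0 ∧ y v = v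

theorem coe_ne_one {y : G} (h : y ≠ 1) : (y : V ≃ₗ[ZMod p] V) ≠ 1 := fun h' => h (Subtype.ext h')

theorem mul_app (x y : V ≃ₗ[ZMod p] V) (v : V) : (x * y) v = x (y v) := rfl

theorem lin_of (hK : KS G A K χ σ) {y : G} (hy : σ y = 1) (k : K) (v : V) :
    (y : V ≃ₗ[ZMod p] V) (k • v) = k • (y : V ≃ₗ[ZMod p] V) v := by
  rw [hK.semi, hy]; rfl

theorem A_comm (E : ETwo G A F) {a b : V ≃ₗ[ZMod p] V} (ha : a ∈ A) (hb : b ∈ A) : a * b = b * a := E.cenA a ha b (E.AF hb)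

theorem sigma_A (E : ETwo G A F) (hK : KS G A K χ σ) {y : G} (hy : (y : V ≃ₗ[ZMod p] V) ∈ A) : σ y = 1 :=
  (hK.cen y).2 fun _ hx => A_comm E hy hx

theorem A_le_G (E : ETwo G A F) : A ≤ G := E.AF.trans E.FG

/-! ### at most two elements of a coset of `A` have fixed vectors -/

theorem fiber (hK : KS G A K χ σ) (h2 : finrank K V = 2) {a b c : G} (hab : a ≠ b) (hac : a ≠ c)
    (hbc : b ≠ c) (ha : σ a = 1) (h1 : ((a⁻¹ * b : G) : V ≃ₗ[ZMod p] V) ∈ A) (h1' : ((a⁻¹ * c : G) : V ≃ₗ[ZMod p] V) ∈ A)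
    (fa : HF (a : V ≃ₗ[ZMod p] V)) (fb : HF (b : V ≃ₗ[ZMod p] V)) (fc : HF (c : V ≃ₗ[ZMod p] V)) : False := by
  have hfin := hK.fin
  let f : Module.End K V :=
    { toFun := fun v => (a : V ≃ₗ[ZMod p] V) v
      map_add' := map_add _
      map_smul' := fun k v => lin_of hK ha k v }
  -- eigenvalues
  have key : ∀ (b : G) (h : ((a⁻¹ * b : G) : V ≃ₗ[ZMod p] V) ∈ A), HF (b : V ≃ₗ[ZMod p] V) →
      ∃ v : V, f.HasEigenvector ((((χ ⟨_, h⟩)⁻¹ : Kˣ) : K)) v := by
    intro b h ⟨v, hv, hv'⟩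
    refine ⟨v, ?_, hv⟩
    rw [Module.End.mem_eigenspace_iff]
    have e1 : (b : V ≃ₗ[ZMod p] V) = (a : V ≃ₗ[ZMod p] V) * ((a⁻¹ * b : G) : V ≃ₗ[ZMod p] V) := by
      rw [← Subgroup.coe_mul, mul_inv_cancel_left]
    rw [e1, mul_app] at hv'
    have e2 := hK.act ⟨_, h⟩ v
    change ((a⁻¹ * b : G) : V ≃ₗ[ZMod p] V) v = _ at e2
    rw [e2, lin_of hK ha] at hv'
    show (a : V ≃ₗ[ZMod p] V) v = _
    calc (a : V ≃ₗ[ZMod p] V) v = (((χ ⟨_, h⟩)⁻¹ : Kˣ) : K) • ((χ ⟨_, h⟩ : Kˣ) : K) • (a : V ≃ₗ[ZMod p] V) v := by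
          rw [smul_smul, Units.inv_mul, one_smul]
      _ = _ := by rw [hv']
  have h0 : ((a⁻¹ * a : G) : V ≃ₗ[ZMod p] V) ∈ A := by
    rw [inv_mul_cancel]; exact A.one_mem
  obtain ⟨v0, e0⟩ := key a h0 fa
  obtain ⟨v1, e1⟩ := key b h1 fb
  obtain ⟨v2, e2⟩ := key c h1' fc
  have hinj : ∀ (b c : G) (h : ((a⁻¹ * b : G) : V ≃ₗ[ZMod p] V) ∈ A) (h' : ((a⁻¹ * c : G) : V ≃ₗ[ZMod p] V) ∈ A), b ≠ c →
      (((χ ⟨_, h⟩)⁻¹ : Kˣ) : K) ≠ (((χ ⟨_, h'⟩)⁻¹ : Kˣ) : K) := by
    intro b c h h' hne heq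
    have h3 := inv_injective (Units.ext heq)
    have h4 := congrArg Subtype.val (hK.inj h3)
    have h5 : a⁻¹ * b = a⁻¹ * c := Subtype.ext h4
    exact hne (mul_left_cancel h5)
  have hli := f.eigenvectors_linearIndependent' (ι := Fin 3)
    ![(((χ ⟨_, h0⟩)⁻¹ : Kˣ) : K), (((χ ⟨_, h1⟩)⁻¹ : Kˣ) : K), (((χ ⟨_, h1'⟩)⁻¹ : Kˣ) : K)] (by
      intro i j hij
      have n1 := hinj a b h0 h1 hab
      have n2 := hinj a c h0 h1' hac
      have n3 := hinj b c h1 h1' hbc
      fin_cases i <;> fin_cases j <;> first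
        | rfl
        | exact absurd hij n1
        | exact absurd hij.symm n1
        | exact absurd hij n2
        | exact absurd hij.symm n2
        | exact absurd hij n3
        | exact absurd hij.symm n3) ![v0, v1, v2] (by
      intro i
      fin_cases i
      · exact e0
      · exact e1
      · exact e2)
  have hfd : FiniteDimensional K V := Module.Finite.of_finite
  have h5 := hli.fintype_card_le_finrank
  rw [h2, Fintype.card_fin] at h5
  omega

/-- the number of elements with fixed vectors in a subgroup between `A` and `ker σ` -/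
theorem card_HF_le (E : ETwo G A F) (hK : KS G A K χ σ) (h2 : finrank K V = 2) {D : Subgroup G}
    (hAD : A.subgroupOf G ≤ D) (hD : D ≤ σ.ker) {k : ℕ} (hk : Nat.card D = k * Nat.card A) :
    Nat.card {y : G // y ∈ D ∧ y ≠ 1 ∧ HF (y : V ≃ₗ[ZMod p] V)} ≤ 2 * (k - 1) := by
  classical
  have hn : (A.subgroupOf G).Normal := ⟨fun a ha g => by
    rw [Subgroup.mem_subgroupOf] at ha ⊢
    exact E.nA g g.2 _ ha⟩
  have := Fintype.ofFinite G
  have hfq : Finite (G ⧸ A.subgroupOf G) := inferInstance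
  have := Fintype.ofFinite (G ⧸ A.subgroupOf G)
  let Db : Subgroup (G ⧸ A.subgroupOf G) := D.map (QuotientGroup.mk' _)
  have hDb : Nat.card Db = k := by
    have h3 := ((A.subgroupOf G).subgroupOf D).card_mul_index
    have e1 : ((QuotientGroup.mk' (A.subgroupOf G)).comp D.subtype).range = Db := by
      rw [MonoidHom.range_comp, Subgroup.range_subtype]
    have e2 : ((QuotientGroup.mk' (A.subgroupOf G)).comp D.subtype).ker = (A.subgroupOf G).subgroupOf D := by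
      ext x
      rw [MonoidHom.mem_ker, Subgroup.mem_subgroupOf]
      exact QuotientGroup.eq_one_iff _
    rw [Nat.card_congr (Subgroup.subgroupOfEquivOfLe hAD).toEquiv,
      Nat.card_congr (Subgroup.subgroupOfEquivOfLe (A_le_G E)).toEquiv, hk, ← e2, Subgroup.index_ker, e1, mul_comm] at h3
    exact Nat.eq_of_mul_eq_mul_right Nat.card_pos h3
  rw [Nat.card_eq_fintype_card, Fintype.card_subtype]
  have hT : ((Finset.univ.filter fun x : G ⧸ A.subgroupOf G => x ∈ Db).erase 1).card = k - 1 := by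
    rw [Finset.card_erase_of_mem (by simp [Db.one_mem]), ← Fintype.card_subtype, ← Nat.card_eq_fintype_card]
    congr 1
  rw [← hT]
  refine Finset.card_le_mul_card_image_of_maps_to (f := fun y : G => (y : G ⧸ A.subgroupOf G)) ?_ 2 ?_
  · intro y hy
    rw [Finset.mem_filter] at hy
    obtain ⟨-, hyD, hy1, v, hv, hv'⟩ := hy
    rw [Finset.mem_erase, Finset.mem_filter]
    refine ⟨fun h => ?_, Finset.mem_univ _, ⟨y, hyD, rfl⟩⟩
    have h4 : (y : V ≃ₗ[ZMod p] V) ∈ A := (QuotientGroup.eq_one_iff y).1 h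
    exact hv (E.semi _ h4 (coe_ne_one hy1) v hv')
  · intro b hb
    by_contra hc
    push Not at hc
    obtain ⟨x, hx, y, hy, z, hz, hxy, hxz, hyz⟩ := Finset.two_lt_card.1 hc
    rw [Finset.mem_filter, Finset.mem_filter] at hx hy hz
    obtain ⟨⟨-, hxD, -, fx⟩, ex⟩ := hx
    obtain ⟨⟨-, -, -, fy⟩, ey⟩ := hy
    obtain ⟨⟨-, -, -, fz⟩, ez⟩ := hz
    have h4 : x⁻¹ * y ∈ A.subgroupOf G := QuotientGroup.eq.1 (ex.trans ey.symm)
    have h5 : x⁻¹ * z ∈ A.subgroupOf G := QuotientGroup.eq.1 (ex.trans ez.symm)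
    exact fiber hK h2 hxy hxz hyz (hD hxD) h4 h5 fx fy fz

/-! ### the vector without stabiliser in `ker σ` -/

/-- the involutions with fixed vectors -/
def II (G : Subgroup (V ≃ₗ[ZMod p] V)) : Set G := {y | y * y = 1 ∧ y ≠ 1 ∧ HF (y : V ≃ₗ[ZMod p] V)}

theorem exists_free (hK : KS G A K χ σ) {q : ℕ} (hq : Nat.card K = q) (hV : Nat.card V = q ^ 2) (hq46 : 46 < q)
    (hY : Nat.card {y : G // y ∈ σ.ker ∧ y ≠ 1 ∧ HF (y : V ≃ₗ[ZMod p] V)} ≤ 46) :
    ∃ v : V, v ≠ 0 ∧ ∀ y : G, σ y = 1 → (y : V ≃ₗ[ZMod p] V) v = v → y = 1 := by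
  classical
  have hfin := hK.fin
  by_contra hc
  push Not at hc
  have := Fintype.ofFinite G
  have := Fintype.ofFinite V
  let Y : Finset G := Finset.univ.filter fun y : G => y ∈ σ.ker ∧ y ≠ 1 ∧ HF (y : V ≃ₗ[ZMod p] V)
  have hYc : Y.card ≤ 46 := by
    rw [Nat.card_eq_fintype_card, Fintype.card_subtype] at hY
    exact hY
  have h1 : (Finset.univ.erase (0 : V)) ⊆ Y.biUnion fun y => (Finset.univ.filter fun v : V => (y : V ≃ₗ[ZMod p] V) v = v).erase 0 := by
    intro v hv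
    have hv0 := Finset.ne_of_mem_erase hv
    obtain ⟨y, hy1, hy2, hy3⟩ := hc v hv0
    rw [Finset.mem_biUnion]
    refine ⟨y, ?_, ?_⟩
    · rw [Finset.mem_filter]
      exact ⟨Finset.mem_univ _, hy1, hy3, v, hv0, hy2⟩
    · rw [Finset.mem_erase, Finset.mem_filter]
      exact ⟨hv0, Finset.mem_univ _, hy2⟩
  have h2 := (Finset.card_le_card h1).trans Finset.card_biUnion_le
  have h3 : ∀ y ∈ Y, ((Finset.univ.filter fun v : V => (y : V ≃ₗ[ZMod p] V) v = v).erase 0).card = q - 1 := by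
    intro y hy
    rw [Finset.mem_filter] at hy
    rw [Finset.card_erase_of_mem (by simp)]
    have h4 := card_fx_lin (p := p) hq hV (fun k v => lin_of hK hy.2.1 k v) (coe_ne_one hy.2.2.1) hy.2.2.2
    rw [← h4, Nat.card_eq_fintype_card, Fintype.card_subtype]
    congr 2
    ext v
    simp
  rw [Finset.sum_congr rfl h3, Finset.sum_const, smul_eq_mul, Finset.card_erase_of_mem (Finset.mem_univ _),
    Finset.card_univ, ← Nat.card_eq_fintype_card, hV] at h2
  have h5 : Y.card * (q - 1) ≤ 46 * (q - 1) := Nat.mul_le_mul_right _ hYc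
  have h6 : q ^ 2 - 1 = (q + 1) * (q - 1) := by
    obtain ⟨r, rfl⟩ : ∃ r, q = r + 1 := ⟨q - 1, by omega⟩
    rw [Nat.add_sub_cancel]
    have : (r + 1) ^ 2 = (r + 1 + 1) * r + 1 := by ring
    omega
  have h7 : 46 * (q - 1) < (q + 1) * (q - 1) := Nat.mul_lt_mul_of_pos_right (by omega) (by omega)
  omega

/-- `h = 2` and `|G : ker σ| = 2` -/
theorem h_two (hK : KS G A K χ σ) [CharP K p] (hq : Nat.card K = p ^ 2) {h : ℕ} (hh : Half G h) (h2 : 2 ≤ h)
    {v : V} (hv : v ≠ 0) (hfree : ∀ y : G, σ y = 1 → (y : V ≃ₗ[ZMod p] V) v = v → y = 1) :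
    h = 2 ∧ Nat.card G = 2 * Nat.card σ.ker := by
  have hfin := hK.fin
  have hs := hh v hv
  -- the stabiliser
  have h1 : ∀ a b : MulAction.stabilizer G v, a ≠ 1 → b ≠ 1 → a = b := by
    intro a b ha hb
    have ha' : σ (a : G) ≠ 1 := fun h' => ha (Subtype.ext (hfree a h' (mem_stab.1 a.2)))
    have hb' : σ (b : G) ≠ 1 := fun h' => hb (Subtype.ext (hfree b h' (mem_stab.1 b.2)))
    have h3 : σ ((a⁻¹ * b : MulAction.stabilizer G v) : G) = 1 := by
      show σ ((a : G)⁻¹ * (b : G)) = 1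
      rw [map_mul, map_inv, aut_unique (p := p) hq _ _ ha' hb', inv_mul_cancel]
    have h4 := hfree _ h3 (mem_stab.1 (a⁻¹ * b).2)
    have h5 : a⁻¹ * b = 1 := Subtype.ext h4
    exact (inv_mul_eq_one.1 h5)
  have h3 : Nat.card (MulAction.stabilizer G v) ≤ 2 := by
    by_contra hc
    push Not at hc
    classical
    have := Fintype.ofFinite (MulAction.stabilizer G v)
    rw [Nat.card_eq_fintype_card, ← Finset.card_univ] at hc
    obtain ⟨a, -, b, -, c, -, hab, hac, hbc⟩ := Finset.two_lt_card.1 hc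
    by_cases ha : a = 1
    · subst ha
      exact hbc (h1 b c (Ne.symm hab) (Ne.symm hac))
    · by_cases hb : b = 1
      · subst hb
        exact hac (h1 a c ha (Ne.symm hbc))
      · exact hab (h1 a b ha hb)
  have h4 : h = 2 := by omega
  refine ⟨h4, ?_⟩
  -- an element outside the kernel
  obtain ⟨a, ha⟩ : ∃ a : MulAction.stabilizer G v, a ≠ 1 := by
    have : Nontrivial (MulAction.stabilizer G v) := by
      rw [← Finite.one_lt_card_iff_nontrivial]
      omega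
    exact exists_ne 1
  have ha' : σ (a : G) ≠ 1 := fun h' => ha (Subtype.ext (hfree a h' (mem_stab.1 a.2)))
  have h5 : σ.ker.index = 2 := by
    rw [Subgroup.index_eq_two_iff]
    refine ⟨a, fun b => ?_⟩
    rw [MonoidHom.mem_ker, MonoidHom.mem_ker, map_mul]
    by_cases hb : σ b = 1
    · right
      rw [hb, one_mul]
      exact ⟨rfl, ha'⟩
    · left
      rw [aut_unique (p := p) hq _ _ hb ha', aut_sq (p := p) hq]
      exact ⟨rfl, ha'⟩
  have h6 := σ.ker.card_mul_index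
  rw [h5] at h6
  rw [← h6, mul_comm]

/-- every involution with a fixed vector fixes exactly `q` vectors -/
theorem card_fx_II (hp : p ≠ 2) (hK : KS G A K χ σ) [CharP K p] (hq : Nat.card K = p ^ 2) (hV : Nat.card V = p ^ 4)
    {y : G} (hy : y ∈ II G) : Nat.card (fx (y : V ≃ₗ[ZMod p] V)) = p ^ 2 := by
  have hfin := hK.fin
  obtain ⟨h1, h2, h3⟩ := hy
  have hV' : Nat.card V = (p ^ 2) ^ 2 := by rw [hV, ← pow_mul]
  by_cases hs : σ y = 1
  · exact card_fx_lin hq hV' (fun k v => lin_of hK hs k v) (coe_ne_one h2) h3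
  · have h4 : (y : V ≃ₗ[ZMod p] V) * y = 1 := congrArg Subtype.val h1
    have h5 := card_fx_semi (K := K) hp (fun k v => hK.semi y k v) hs (aut_sq (p := p) hq _) h4
    rw [hV'] at h5
    exact Nat.pow_left_injective (n := 2) two_ne_zero h5

/-- the number of involutions with fixed vectors -/
theorem card_II (hp : p ≠ 2) (hK : KS G A K χ σ) [CharP K p] (hq : Nat.card K = p ^ 2) (hV : Nat.card V = p ^ 4)
    (hh : Half G 2) : Nat.card (II G) = p ^ 2 + 1 := by
  classical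
  have := Fintype.ofFinite G
  have := Fintype.ofFinite V
  have hp2 : 2 ≤ p := (Fact.out : p.Prime).two_le
  -- the involution of a vector
  have h1 : ∀ v : V, v ≠ 0 → ∃! y : G, y ∈ II G ∧ (y : V ≃ₗ[ZMod p] V) v = v := by
    intro v hv
    have hs := hh v hv
    have hnt : Nontrivial (MulAction.stabilizer G v) := by
      rw [← Finite.one_lt_card_iff_nontrivial, hs]; norm_num
    obtain ⟨a, ha⟩ := exists_ne (1 : MulAction.stabilizer G v)
    have ha2 : a * a = 1 := by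
      have := pow_card_eq_one' (x := a)
      rwa [hs, sq] at this
    refine ⟨a, ⟨⟨congrArg Subtype.val ha2, fun h => ha (Subtype.ext h), v, hv, mem_stab.1 a.2⟩, mem_stab.1 a.2⟩, ?_⟩
    rintro b ⟨hb, hb'⟩
    have h2 : (⟨b, hb'⟩ : MulAction.stabilizer G v) = a := by
      by_contra hne
      have h3 : (1 : MulAction.stabilizer G v) ≠ ⟨b, hb'⟩ := fun h => hb.2.1 (congrArg Subtype.val h).symm
      have h4 : ({1, a, ⟨b, hb'⟩} : Finset (MulAction.stabilizer G v)).card = 3 := by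
        rw [Finset.card_eq_three]
        exact ⟨1, a, ⟨b, hb'⟩, Ne.symm ha, h3, Ne.symm hne, rfl⟩
      have := Fintype.ofFinite (MulAction.stabilizer G v)
      have h5 := Finset.card_le_univ ({1, a, ⟨b, hb'⟩} : Finset (MulAction.stabilizer G v))
      rw [h4, ← Nat.card_eq_fintype_card, hs] at h5
      omega
    exact congrArg Subtype.val h2
  -- double counting
  have h2 : Nat.card {v : V // v ≠ 0} = Nat.card (Σ y : II G, {v : V // v ≠ 0 ∧ ((y : G) : V ≃ₗ[ZMod p] V) v = v}) := by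
    refine (Nat.card_congr ⟨fun x => ⟨x.2.1, x.2.2.1⟩, fun v => ⟨⟨(h1 v.1 v.2).choose, (h1 v.1 v.2).choose_spec.1.1⟩,
      ⟨v.1, v.2, (h1 v.1 v.2).choose_spec.1.2⟩⟩, ?_, ?_⟩).symm
    · rintro ⟨⟨y, hy⟩, ⟨v, hv, hv'⟩⟩
      have h3 : y = (h1 v hv).choose := (h1 v hv).choose_spec.2 y ⟨hy, hv'⟩
      subst h3
      rfl
    · rintro ⟨v, hv⟩
      rfl
  have h3 : ∀ y : II G, Nat.card {v : V // v ≠ 0 ∧ ((y : G) : V ≃ₗ[ZMod p] V) v = v} = p ^ 2 - 1 := by
    intro y
    rw [← card_fx_II hp hK hq hV y.2, Nat.card_eq_fintype_card, Fintype.card_subtype, Nat.card_eq_fintype_card,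
      Fintype.card_subtype]
    have : (Finset.univ.filter fun v : V => v ≠ 0 ∧ ((y : G) : V ≃ₗ[ZMod p] V) v = v) =
        (Finset.univ.filter fun v : V => v ∈ fx ((y : G) : V ≃ₗ[ZMod p] V)).erase 0 := by
      ext v; simp
    rw [this, Finset.card_erase_of_mem (by simp)]
  have h4 : Nat.card {v : V // v ≠ 0} = p ^ 4 - 1 := by
    rw [← hV, Nat.card_eq_fintype_card, Fintype.card_subtype, Finset.filter_ne', Finset.card_erase_of_mem (Finset.mem_univ _),
      Finset.card_univ, Nat.card_eq_fintype_card]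
  have := Fintype.ofFinite (II G)
  rw [h4, Nat.card_sigma, Finset.sum_congr rfl fun y _ => h3 y, Finset.sum_const, Finset.card_univ, smul_eq_mul,
    ← Nat.card_eq_fintype_card] at h2
  have h5 : 4 ≤ p ^ 2 := by nlinarith
  have h6 : p ^ 4 - 1 = (p ^ 2 + 1) * (p ^ 2 - 1) := by
    obtain ⟨r, hr⟩ : ∃ r, p ^ 2 = r + 1 := ⟨p ^ 2 - 1, by omega⟩
    have : p ^ 4 = (r + 1) * (r + 1) := by rw [← hr]; ring
    rw [this, hr, Nat.add_sub_cancel]
    have : (r + 1) * (r + 1) = (r + 1 + 1) * r + 1 := by ring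
    omega
  rw [h6] at h2
  exact (Nat.eq_of_mul_eq_mul_right (by omega) h2).symm

/-! ### an element of 3-power order -/

theorem exists_der {ρ : G →* Equiv.Perm (Fin 3)} (hf : ∀ i, ∃ g : G, ρ g i ≠ i) : ∃ g : G, ∀ i, ρ g i ≠ i := by
  obtain ⟨a, ha⟩ := hf 0
  obtain ⟨b, hb⟩ := hf 1
  obtain ⟨c, hc⟩ := hf 2
  rcases s3_der (ρ a) (ρ b) (ρ c) ha hb hc with h | h | h | h | h
  · exact ⟨a, h⟩
  · exact ⟨b, h⟩
  · exact ⟨c, h⟩
  · exact ⟨a * b, by rwa [map_mul]⟩
  · exact ⟨a * c, by rwa [map_mul]⟩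

theorem exists_x (hK : KS G A K χ σ) [CharP K p] (hq : Nat.card K = p ^ 2) {ρ : G →* Equiv.Perm (Fin 3)}
    (hf : ∀ i, ∃ g : G, ρ g i ≠ i) : ∃ (x : G) (n : ℕ), (∀ i, ρ x i ≠ i) ∧ σ x = 1 ∧ x ^ 3 ^ n = 1 := by
  have hfin := hK.fin
  obtain ⟨g, hg⟩ := exists_der hf
  obtain ⟨n, b, hb, hnb⟩ := Nat.exists_eq_pow_mul_and_not_dvd (n := orderOf g) (orderOf_pos g).ne' 3 (by norm_num)
  have h3 := s3_cube (ρ g) hg
  have hb2 : b ^ 2 % 3 = 1 := by
    have : b % 3 = 1 ∨ b % 3 = 2 := by omega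
    rcases this with h | h <;> rw [Nat.pow_mod, h]
  have hx : (g ^ b ^ 2) ^ 3 ^ n = 1 := by
    rw [← pow_mul, show b ^ 2 * 3 ^ n = (3 ^ n * b) * b by ring, ← hnb, pow_mul, pow_orderOf_eq_one, one_pow]
  refine ⟨g ^ b ^ 2, n, ?_, ?_, hx⟩
  · have h4 : ρ (g ^ b ^ 2) = ρ g := by
      rw [map_pow, ← Nat.div_add_mod (b ^ 2) 3, hb2, pow_add, pow_mul, h3, one_pow, one_mul, pow_one]
    rwa [h4]
  · have h4 : σ (g ^ b ^ 2) ^ 3 ^ n = 1 := by rw [← map_pow, hx, map_one]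
    have h5 : σ (g ^ b ^ 2) ^ 2 = 1 := by rw [sq]; exact aut_sq (p := p) hq _
    have h6 : Odd (3 ^ n) := Odd.pow (by decide)
    obtain ⟨k, hk⟩ := h6
    rwa [hk, pow_succ, pow_mul, h5, one_pow, one_mul] at h4

/-- the order of `ker σ` -/
theorem card_C (E : ETwo G A F) {ρ : G →* Equiv.Perm (Fin 3)} (R : RF A F σ ρ) {x : G} (hx : ∀ i, ρ x i ≠ i)
    (hs : σ x = 1) : ∃ j, (j = 3 ∨ j = 6) ∧ Nat.card σ.ker = 4 * Nat.card A * j ∧
      (j = 3 → ∀ y : G, σ y = 1 → ρ y ^ 3 = 1) := by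
  let f : σ.ker →* Equiv.Perm (Fin 3) := ρ.comp σ.ker.subtype
  have h1 := f.ker.card_mul_index
  rw [Subgroup.index_ker] at h1
  have h2 : Nat.card f.ker = 4 * Nat.card A := by
    rw [← E.card]
    refine Nat.card_congr ⟨fun y => ⟨((y : σ.ker) : G), (R.ker _).1 ⟨y.2, y.1.2⟩⟩, fun y => ⟨⟨⟨y.1, E.FG y.2⟩, ((R.ker _).2 y.2).2⟩,
      ((R.ker _).2 y.2).1⟩, fun _ => rfl, fun _ => rfl⟩
  have h3 : Nat.card f.range ∣ 6 := by
    have := Subgroup.card_subgroup_dvd_card f.range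
    rwa [Nat.card_eq_fintype_card (α := Equiv.Perm (Fin 3)), Fintype.card_perm, Fintype.card_fin] at this
  have h4 : 3 ∣ Nat.card f.range := by
    have h5 : orderOf (⟨ρ x, ⟨x, hs⟩, rfl⟩ : f.range) = 3 := by
      refine orderOf_eq_prime ?_ ?_
      · apply Subtype.ext
        exact s3_cube _ hx
      · intro h
        have : ρ x = 1 := congrArg Subtype.val h
        exact hx 0 (by rw [this]; rfl)
    have h6 := orderOf_dvd_natCard (⟨ρ x, ⟨x, hs⟩, rfl⟩ : f.range)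
    rwa [h5] at h6
  refine ⟨Nat.card f.range, ?_, ?_, fun h y hy => ?_⟩
  · have h5 := Nat.le_of_dvd (by norm_num) h3
    interval_cases Nat.card f.range <;> revert h3 h4 <;> decide
  · rw [← h1, h2]
  · have h5 := pow_card_eq_one' (x := (⟨ρ y, ⟨y, hy⟩, rfl⟩ : f.range))
    rw [h] at h5
    exact congrArg Subtype.val h5

/-! ### conjugation by `x` -/

theorem modEq_fixed {x : G} {n : ℕ} (hxn : x ^ 3 ^ n = 1) (S : Set G) (hS : ∀ y ∈ S, x * y * x⁻¹ ∈ S) :
    Nat.card S ≡ Nat.card {y : G // y ∈ S ∧ x * y = y * x} [MOD 3] := by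
  classical
  have := Fintype.ofFinite S
  have : Fact (Nat.Prime 3) := ⟨Nat.prime_three⟩
  let f : Function.End S := fun y => ⟨x * y * x⁻¹, hS y y.2⟩
  have hf : ∀ (k : ℕ) (y : S), (((f ^ k) y : S) : G) = x ^ k * y * (x ^ k)⁻¹ := by
    intro k
    induction k with
    | zero =>
      intro y
      show (y : G) = x ^ 0 * y * (x ^ 0)⁻¹
      rw [pow_zero, inv_one, mul_one, one_mul]
    | succ k ih =>
      intro y
      have : (f ^ (k + 1)) y = f ((f ^ k) y) := by rw [pow_succ']; rfl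
      rw [this]
      show x * _ * x⁻¹ = _
      rw [ih, pow_succ']
      group
  have h1 : f ^ 3 ^ n = 1 := by
    funext y
    apply Subtype.ext
    rw [hf, hxn, inv_one, mul_one, one_mul]
    rfl
  have h2 := Equiv.Perm.card_fixedPoints_modEq (p := 3) h1
  rw [← Nat.card_eq_fintype_card] at h2
  have h3 : Fintype.card (Function.fixedPoints f) = Nat.card {y : G // y ∈ S ∧ x * y = y * x} := by
    rw [← Nat.card_eq_fintype_card]
    refine Nat.card_congr ⟨fun y => ⟨y.1.1, y.1.2, ?_⟩, fun y => ⟨⟨y.1, y.2.1⟩, ?_⟩, fun _ => rfl, fun _ => rfl⟩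
    · have h4 : x * (y.1 : G) * x⁻¹ = y.1 := congrArg Subtype.val y.2
      exact mul_inv_eq_iff_eq_mul.1 h4
    · apply Subtype.ext
      show x * y.1 * x⁻¹ = y.1
      rw [y.2.2, mul_inv_cancel_right]
  rwa [← h3]

theorem conj_II {y : G} (hy : y ∈ II G) (x : G) : x * y * x⁻¹ ∈ II G := by
  obtain ⟨h1, h2, v, hv, hv'⟩ := hy
  refine ⟨?_, ?_, (x : V ≃ₗ[ZMod p] V) v, ?_, ?_⟩
  · calc x * y * x⁻¹ * (x * y * x⁻¹) = x * (y * y) * x⁻¹ := by group
      _ = 1 := by rw [h1]; group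
  · intro h
    apply h2
    calc y = x⁻¹ * (x * y * x⁻¹) * x := by group
      _ = 1 := by rw [h]; group
  · intro h
    exact hv ((map_eq_zero_iff _ (x : V ≃ₗ[ZMod p] V).injective).1 h)
  · have h3 : (((x * y * x⁻¹ : G) : V ≃ₗ[ZMod p] V)) * x = x * y := by
      rw [← Subgroup.coe_mul, ← Subgroup.coe_mul, inv_mul_cancel_right]
    rw [← mul_app, h3, mul_app, hv']

/-- no element of `II` in `ker σ` commutes with `x` -/
theorem not_comm (E : ETwo G A F) {ρ : G →* Equiv.Perm (Fin 3)} (R : RF A F σ ρ) {x : G} (hx : ∀ i, ρ x i ≠ i)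
    {y : G} (hy : y ∈ II G) (hs : σ y = 1) (hc : x * y = y * x) : False := by
  obtain ⟨h1, h2, v, hv, hv'⟩ := hy
  have h3 : ρ y = 1 := s3_sq (ρ x) (ρ y) hx (by rw [← map_mul, hc, map_mul]) (by rw [← map_mul, h1, map_one])
  have h4 := (R.ker y).1 ⟨h3, hs⟩
  have h5 := R.cen x hx _ h4 (congrArg Subtype.val hc)
  exact hv (E.semi _ h5 (coe_ne_one h2) v hv')

/-- conjugation of `A` by an element outside `ker σ` -/
theorem conj_A (hK : KS G A K χ σ) [CharP K p] (hq : Nat.card K = p ^ 2) [Nontrivial V] {y : G} (hs : σ y ≠ 1)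
    {a : V ≃ₗ[ZMod p] V} (ha : a ∈ A) : (y : V ≃ₗ[ZMod p] V) * a = a ^ p * y := by
  have hfin := hK.fin
  ext v
  have h1 := hK.act ⟨a, ha⟩
  have h2 := (aut_cases (p := p) hq (σ y)).resolve_left hs
  have h3 : (a ^ p) ((y : V ≃ₗ[ZMod p] V) v) = ((χ ⟨a, ha⟩ : K) ^ p) • ((y : V ≃ₗ[ZMod p] V) v) := by
    have h4 := hK.act (⟨a, ha⟩ ^ p) ((y : V ≃ₗ[ZMod p] V) v)
    rw [map_pow, Units.val_pow_eq_pow_val] at h4
    exact h4
  rw [mul_app, mul_app, h3, ← h2, ← hK.semi]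
  exact congrArg _ (h1 v)

/-- products of an involution outside `ker σ` with elements of `A` -/
theorem mul_mem_II (hp : p ≠ 2) (E : ETwo G A F) (hK : KS G A K χ σ) [CharP K p] (hq : Nat.card K = p ^ 2)
    (hV : Nat.card V = p ^ 4) [Nontrivial V] {y : G} (hy : y * y = 1) (hs : σ y ≠ 1) {a : G}
    (ha : (a : V ≃ₗ[ZMod p] V) ∈ A) (hap : a ^ (p + 1) = 1) : a * y ∈ II G := by
  have hfin := hK.fin
  have h1 : y * a = a ^ p * y := Subtype.ext (conj_A hK hq hs ha)
  have h2 : a * y * (a * y) = 1 := by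
    calc a * y * (a * y) = a * (y * a) * y := by group
      _ = a ^ (p + 1) * (y * y) := by rw [h1, pow_succ']; group
      _ = 1 := by rw [hap, hy, mul_one]
  have h3 : σ (a * y) ≠ 1 := by rwa [map_mul, sigma_A E hK ha, one_mul]
  refine ⟨h2, fun h => h3 (by rw [h, map_one]), ?_⟩
  have h4 := card_fx_semi (K := K) hp (fun k v => hK.semi (a * y) k v) h3 (aut_sq (p := p) hq _) (congrArg Subtype.val h2)
  have h5 : Nat.card (fx ((a * y : G) : V ≃ₗ[ZMod p] V)) = p ^ 2 := by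
    have h6 : Nat.card V = (p ^ 2) ^ 2 := by rw [hV, ← pow_mul]
    rw [h6] at h4
    exact Nat.pow_left_injective (n := 2) two_ne_zero h4
  have h6 : Nontrivial (fx ((a * y : G) : V ≃ₗ[ZMod p] V)) := by
    rw [← Finite.one_lt_card_iff_nontrivial, h5]
    have := (Fact.out : p.Prime).two_le
    nlinarith
  obtain ⟨w, hw⟩ := exists_ne (0 : fx ((a * y : G) : V ≃ₗ[ZMod p] V))
  exact ⟨w, fun h => hw (Subtype.ext h), mem_fx.1 w.2⟩

/-- the number of elements of `II` commuting with `x` -/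
theorem card_fixed (hp : p ≠ 2) (E : ETwo G A F) (hK : KS G A K χ σ) [CharP K p] (hq : Nat.card K = p ^ 2)
    (hV : Nat.card V = p ^ 4) [Nontrivial V] {ρ : G →* Equiv.Perm (Fin 3)} (R : RF A F σ ρ) {x : G} (hx : ∀ i, ρ x i ≠ i)
    (hs : σ x = 1) : Nat.card {y : G // y ∈ II G ∧ x * y = y * x} = 0 ∨
      Nat.card {y : G // y ∈ II G ∧ x * y = y * x} = Nat.card {a : A // a ^ (p + 1) = 1} := by
  have hfin := hK.fin
  rcases isEmpty_or_nonempty {y : G // y ∈ II G ∧ x * y = y * x} with h0 | ⟨⟨y0, hy0, hc0⟩⟩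
  · exact Or.inl Nat.card_of_isEmpty
  right
  have hs0 : σ y0 ≠ 1 := fun h => not_comm E R hx hy0 h hc0
  have hxA : ∀ a ∈ A, (x : V ≃ₗ[ZMod p] V) * a = a * x := (hK.cen x).1 hs
  symm
  let f : {a : A // a ^ (p + 1) = 1} → {y : G // y ∈ II G ∧ x * y = y * x} := fun a =>
    ⟨⟨(a.1 : V ≃ₗ[ZMod p] V), A_le_G E a.1.2⟩ * y0, mul_mem_II hp E hK hq hV hy0.1 hs0 a.1.2 (by
      apply Subtype.ext
      have := congrArg Subtype.val a.2
      exact this), by
      apply Subtype.ext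
      have h1 := hxA _ a.1.2
      have h2 : (x : V ≃ₗ[ZMod p] V) * y0 = y0 * x := congrArg Subtype.val hc0
      show (x : V ≃ₗ[ZMod p] V) * ((a.1 : V ≃ₗ[ZMod p] V) * y0) = (a.1 : V ≃ₗ[ZMod p] V) * y0 * x
      rw [← mul_assoc, h1, mul_assoc, h2, mul_assoc]⟩
  refine Nat.card_eq_of_bijective f ⟨fun a b hab => ?_, fun y => ?_⟩
  · have h1 := congrArg Subtype.val hab
    have h2 : (⟨(a.1 : V ≃ₗ[ZMod p] V), A_le_G E a.1.2⟩ : G) = ⟨(b.1 : V ≃ₗ[ZMod p] V), A_le_G E b.1.2⟩ :=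
      mul_right_cancel h1
    have h3 : (a.1 : V ≃ₗ[ZMod p] V) = (b.1 : V ≃ₗ[ZMod p] V) := congrArg (fun g : G => (g : V ≃ₗ[ZMod p] V)) h2
    exact Subtype.ext (Subtype.ext h3)
  · obtain ⟨y, hy, hc⟩ := y
    have hs1 : σ y ≠ 1 := fun h => not_comm E R hx hy h hc
    -- `u = y y0⁻¹`
    have hu1 : σ (y * y0⁻¹) = 1 := by
      rw [map_mul, map_inv, aut_unique (p := p) hq _ _ hs1 hs0, mul_inv_cancel]
    have cy : Commute x y := hc
    have cy0 : Commute x y0 := hc0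
    have cu : Commute x (y * y0⁻¹) := cy.mul_right cy0.inv_right
    obtain ⟨k, hk⟩ : ∃ k : ℕ, ρ (y * y0⁻¹) = ρ (x ^ k) := by
      rcases s3_cent (ρ x) (ρ (y * y0⁻¹)) hx (by rw [← map_mul, cu.eq, map_mul]) with h | h | h
      · exact ⟨0, by rw [h, pow_zero, map_one]⟩
      · exact ⟨1, by rw [h, pow_one]⟩
      · exact ⟨2, by rw [h, sq, map_mul]⟩
    -- `y = a x^k y0`
    set a := y * y0⁻¹ * (x ^ k)⁻¹ with ha
    have ha1 : ρ a = 1 ∧ σ a = 1 := by
      constructor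
      · rw [ha, map_mul, hk, map_inv, mul_inv_cancel]
      · rw [ha, map_mul, hu1, map_inv, map_pow, hs, one_pow, inv_one, mul_one]
    have ca : Commute x a := cu.mul_right ((Commute.refl x).pow_right k).inv_right
    have haA : (a : V ≃ₗ[ZMod p] V) ∈ A := R.cen x hx _ ((R.ker a).1 ha1) (congrArg Subtype.val ca.eq)
    have hya : y = a * (x ^ k * y0) := by rw [ha]; group
    have h1 : y0 * a = a ^ p * y0 := Subtype.ext (conj_A hK hq hs0 haA)
    have cxk : Commute (x ^ k) y0 := cy0.pow_left k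
    have cxa : Commute (x ^ k) a := ca.pow_left k
    -- the square
    have h2 : a ^ (p + 1) * (x ^ k * x ^ k) = 1 := by
      have h3 := hy.1
      rw [hya] at h3
      rw [← h3]
      symm
      calc a * (x ^ k * y0) * (a * (x ^ k * y0)) = a * x ^ k * (y0 * a) * (x ^ k * y0) := by group
        _ = a * x ^ k * (a ^ p * y0) * (y0 * x ^ k) := by rw [h1, cxk.eq]
        _ = a * (x ^ k * a ^ p) * (y0 * y0) * x ^ k := by group
        _ = a * (a ^ p * x ^ k) * x ^ k := by rw [hy0.1, mul_one, (cxa.pow_right p).eq]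
        _ = a ^ (p + 1) * (x ^ k * x ^ k) := by rw [pow_succ' a p]; group
    have h3 : ρ (x ^ k) = 1 := by
      have h4 : ρ (x ^ k * x ^ k) = 1 := by
        have h5 := congrArg ρ h2
        rwa [map_mul, map_pow, ha1.1, one_pow, one_mul, map_one] at h5
      have h5 : ρ (x ^ k) ^ 3 = 1 := by
        rw [map_pow, ← pow_mul, mul_comm, pow_mul, s3_cube _ hx, one_pow]
      rw [map_mul] at h4
      calc ρ (x ^ k) = ρ (x ^ k) ^ 3 * (ρ (x ^ k) * ρ (x ^ k))⁻¹ := by group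
        _ = 1 := by rw [h5, h4, inv_one, mul_one]
    -- hence `u ∈ A`
    have hu2 : ((y * y0⁻¹ : G) : V ≃ₗ[ZMod p] V) ∈ A :=
      R.cen x hx _ ((R.ker _).1 ⟨by rw [hk, h3], hu1⟩) (congrArg Subtype.val cu.eq)
    have h4 : (y * y0⁻¹) ^ (p + 1) = 1 := by
      set b := y * y0⁻¹ with hb
      have h5 : y0 * b = b ^ p * y0 := Subtype.ext (conj_A hK hq hs0 hu2)
      have h6 : y = b * y0 := by rw [hb]; group
      have h7 := hy.1
      rw [h6] at h7
      calc b ^ (p + 1) = b * b ^ p * 1 := by rw [pow_succ', mul_one]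
        _ = b * (b ^ p * y0) * y0 := by rw [← hy0.1]; group
        _ = b * y0 * (b * y0) := by rw [← h5]; group
        _ = 1 := h7
    have h4' : ((y * y0⁻¹ : G) : V ≃ₗ[ZMod p] V) ^ (p + 1) = 1 := congrArg Subtype.val h4
    refine ⟨⟨⟨_, hu2⟩, Subtype.ext h4'⟩, ?_⟩
    · apply Subtype.ext
      show (⟨((y * y0⁻¹ : G) : V ≃ₗ[ZMod p] V), _⟩ : G) * y0 = y
      have h5 : (⟨((y * y0⁻¹ : G) : V ≃ₗ[ZMod p] V), A_le_G E hu2⟩ : G) = y * y0⁻¹ := rfl
      rw [h5, inv_mul_cancel_right]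

/-- the involutions outside `ker σ` when `a ^ (p + 1) = 1` on `A` -/
theorem dvd_out (hp : p ≠ 2) (E : ETwo G A F) (hK : KS G A K χ σ) [CharP K p] (hq : Nat.card K = p ^ 2)
    (hV : Nat.card V = p ^ 4) [Nontrivial V] (hA : ∀ a ∈ A, a ^ (p + 1) = 1) :
    Nat.card A ∣ Nat.card {y : G // y ∈ II G ∧ σ y ≠ 1} := by
  let act : A → {y : G // y ∈ II G ∧ σ y ≠ 1} → {y : G // y ∈ II G ∧ σ y ≠ 1} := fun a y =>
    ⟨⟨(a : V ≃ₗ[ZMod p] V), A_le_G E a.2⟩ * y.1, mul_mem_II hp E hK hq hV y.2.1.1 y.2.2 a.2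
      (Subtype.ext (hA _ a.2)), by
      rw [map_mul, sigma_A E hK (y := ⟨(a : V ≃ₗ[ZMod p] V), A_le_G E a.2⟩) a.2, one_mul]
      exact y.2.2⟩
  let _ : MulAction A {y : G // y ∈ II G ∧ σ y ≠ 1} :=
    { smul := act
      one_smul := fun y => Subtype.ext (one_mul y.1)
      mul_smul := fun a b y => Subtype.ext (mul_assoc (⟨(a : V ≃ₗ[ZMod p] V), A_le_G E a.2⟩ : G)
        ⟨(b : V ≃ₗ[ZMod p] V), A_le_G E b.2⟩ y.1) }
  refine dvd_card_of_orbits (K := A) fun y => ?_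
  refine (Nat.card_congr (Equiv.ofInjective (fun a : A => a • y) fun a b hab => ?_)).symm
  have h1 := congrArg Subtype.val hab
  have h2 : (⟨(a : V ≃ₗ[ZMod p] V), A_le_G E a.2⟩ : G) = ⟨(b : V ≃ₗ[ZMod p] V), A_le_G E b.2⟩ := mul_right_cancel h1
  exact Subtype.ext (congrArg (fun g : G => (g : V ≃ₗ[ZMod p] V)) h2)

end main

end Cfsg.Agent.H5.HT
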